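import Groth.Agent.Dual.H338.PushAdj

/-!
# The right adjoint of `Ri_*` on `D_QCoh` for a closed immersion, on bounded below objects
-/

set_option autoImplicit false

universe u v₁ v₂ v₃ u₁ u₂ u₃

open CategoryTheory CategoryTheory.Limits AlgebraicGeometry

attribute [local instance] HasDerivedCategory.standard

namespace Groth.Agent.Dual.H338.Main

open Groth.Agent.Dual.H338.PushAdj

section General

variable {P : Type u₁} [Category.{v₁} P] {A : Type u₂} [Category.{v₂} A] {B : Type u₃}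
  [Category.{v₃} B] (J : P ⥤ B) (L : A ⥤ B) (R₁ R₂ : P ⥤ A)

/-- Uniqueness of partial right adjoints. -/
theorem nonempty_iso_of_homEquiv
    (e₁ : ∀ (M : A) (K : P), (L.obj M ⟶ J.obj K) ≃ (M ⟶ R₁.obj K))
    (h₁ : ∀ {M M' : A} {K K' : P} (f : M' ⟶ M) (g : K ⟶ K') (x : L.obj M ⟶ J.obj K),
      e₁ M' K' (L.map f ≫ x ≫ J.map g) = f ≫ e₁ M K x ≫ R₁.map g)
    (e₂ : ∀ (M : A) (K : P), (L.obj M ⟶ J.obj K) ≃ (M ⟶ R₂.obj K))
    (h₂ : ∀ {M M' : A} {K K' : P} (f : M' ⟶ M) (g : K ⟶ K') (x : L.obj M ⟶ J.obj K),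
      e₂ M' K' (L.map f ≫ x ≫ J.map g) = f ≫ e₂ M K x ≫ R₂.map g) :
    Nonempty (R₁ ≅ R₂) := by
  let e (M : A) (K : P) : (M ⟶ R₁.obj K) ≃ (M ⟶ R₂.obj K) := (e₁ M K).symm.trans (e₂ M K)
  have he {M M' : A} {K K' : P} (f : M' ⟶ M) (g : K ⟶ K') (x : M ⟶ R₁.obj K) :
      e M' K' (f ≫ x ≫ R₁.map g) = f ≫ e M K x ≫ R₂.map g := by
    obtain ⟨y, rfl⟩ := (e₁ M K).surjective x
    have h3 := h₁ f g y
    rw [← h3]
    simp only [e, Equiv.trans_apply, Equiv.symm_apply_apply]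
    exact h₂ f g y
  have hl {M M' : A} {K : P} (f : M' ⟶ M) (x : M ⟶ R₁.obj K) :
      e M' K (f ≫ x) = f ≫ e M K x := by
    simpa using he f (𝟙 K) x
  have hr {M : A} {K K' : P} (g : K ⟶ K') (x : M ⟶ R₁.obj K) :
      e M K' (x ≫ R₁.map g) = e M K x ≫ R₂.map g := by
    simpa using he (𝟙 M) g x
  have hl' {M M' : A} {K : P} (f : M' ⟶ M) (x : M ⟶ R₂.obj K) :
      (e M' K).symm (f ≫ x) = f ≫ (e M K).symm x := by
    rw [Equiv.symm_apply_eq, hl, Equiv.apply_symm_apply]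
  exact ⟨NatIso.ofComponents (fun K =>
    { hom := e _ K (𝟙 _)
      inv := (e _ K).symm (𝟙 _)
      hom_inv_id := by rw [← hl', Category.comp_id, Equiv.symm_apply_apply]
      inv_hom_id := by rw [← hl, Category.comp_id, Equiv.apply_symm_apply] })
    (fun {K K'} g => by
      change R₁.map g ≫ e _ K' (𝟙 _) = e _ K (𝟙 _) ≫ R₂.map g
      rw [← hr, ← hl, Category.comp_id, Category.id_comp])⟩

end General

variable {Z X : Scheme.{u}} (i : Z ⟶ X)

/-- The main statement, given that `R Hom(O_Z, -)` preserves quasi-coherence of the cohomology sheaves of bounded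
below complexes, and the exactness of `i_*`. -/
theorem main [Dual3.HasHomO i] [EnoughInjectives X.Modules]
    [PreservesFiniteColimits (Scheme.Modules.pushforward i)]
    [DCoh.HasRpush i] (hf : DCoh.RpushPreservesQCoh i)
    (hq : ∀ K : DerivedCategory.Plus X.Modules, DCoh.IsQCohD K.obj →
      DCoh.IsQCohD ((Dual3.RHomOPlus i).obj K).obj)
    (a : DCoh.DQCoh X ⥤ DCoh.DQCoh Z)
    (adj : DCoh.RpushQ i hf ⊣ a) :
    Nonempty (Dual3.bddι X ⋙ a ⋙ ObjectProperty.ι _ ≅
      Dual3.bddToPlus X ⋙ Dual3.RHomOPlus i ⋙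
        (DerivedCategory.Plus.ι : DerivedCategory.Plus Z.Modules ⥤ DCoh.D Z)) := by
  let Rq : (Dual3.IsBddBelowQ X).FullSubcategory ⥤ DCoh.DQCoh Z :=
    ObjectProperty.lift _ (Dual3.bddToPlus X ⋙ Dual3.RHomOPlus i ⋙
      (DerivedCategory.Plus.ι : DerivedCategory.Plus Z.Modules ⥤ DCoh.D Z))
      (fun K => hq _ K.obj.property)
  let e₂ (M : DCoh.DQCoh Z) (K : (Dual3.IsBddBelowQ X).FullSubcategory) :
      ((DCoh.RpushQ i hf).obj M ⟶ (Dual3.bddι X).obj K) ≃ (M ⟶ Rq.obj K) :=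
    (((((ObjectProperty.fullyFaithfulι _).homEquiv (X := (DCoh.RpushQ i hf).obj M)
        (Y := (Dual3.bddι X).obj K)).trans
      (((rpushIsoPushD i).app M.obj).homFromEquiv)).trans
      ((pushAdj i).homEquiv M.obj K.obj.obj)).trans
      (((rhomPlusIso i).symm.app ((Dual3.bddToPlus X).obj K)).homToEquiv)).trans
      ((ObjectProperty.fullyFaithfulι _).homEquiv (X := M) (Y := Rq.obj K)).symm
  obtain ⟨e⟩ := nonempty_iso_of_homEquiv (Dual3.bddι X) (DCoh.RpushQ i hf) (Dual3.bddι X ⋙ a) Rq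
    (fun M K => adj.homEquiv M ((Dual3.bddι X).obj K))
    (fun {M M' K K'} f g x => by
      rw [adj.homEquiv_naturality_left, adj.homEquiv_naturality_right]; rfl)
    e₂ (fun {M M' K K'} f g x => by
      apply (ObjectProperty.fullyFaithfulι _).homEquiv.injective
      change (pushAdj i).homEquiv M'.obj K'.obj.obj ((rpushIsoPushD i).inv.app M'.obj ≫
          (DCoh.Rpush i).map f.hom ≫ x.hom ≫ g.hom.hom) ≫
            (rhomPlusIso i).inv.app ((Dual3.bddToPlus X).obj K') =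
        f.hom ≫ ((pushAdj i).homEquiv M.obj K.obj.obj ((rpushIsoPushD i).inv.app M.obj ≫ x.hom) ≫
            (rhomPlusIso i).inv.app ((Dual3.bddToPlus X).obj K)) ≫
          (Dual3.RHomOPlus i ⋙ (DerivedCategory.Plus.ι :
            DerivedCategory.Plus Z.Modules ⥤ DCoh.D Z)).map ((Dual3.bddToPlus X).map g)
      have h1 := (rpushIsoPushD i).inv.naturality f.hom
      have h2 := (rhomPlusIso i).inv.naturality ((Dual3.bddToPlus X).map g)
      rw [Category.assoc, ← h2, ← reassoc_of% h1, Adjunction.homEquiv_naturality_left,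
        ← Category.assoc (W := (Dual3.pushD i).obj M.obj), Adjunction.homEquiv_naturality_right,
        Category.assoc, Category.assoc]
      rfl)
  exact ⟨Functor.isoWhiskerRight e (ObjectProperty.ι _)⟩

end Groth.Agent.Dual.H338.Main
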