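import Groth.Agent.Dcoh.DerHo
import Mathlib.Algebra.Homology.DerivedCategory.RightDerivedFunctorPlus

/-!
# Comparison of the bounded below and the unbounded right derived functors

For an additive functor `F : C ⥤ D` of abelian categories with enough injectives in `C`, and an unbounded right
derived functor `(RF, β)` of `F` whose unit `β` is an isomorphism on bounded below complexes of injectives (e.g. if
`C` has K-injective resolutions), there is an isomorphism of functors on `D^+(C)`:
`F.rightDerivedFunctorPlus ⋙ DerivedCategory.Plus.ι ≅ DerivedCategory.Plus.ι ⋙ RF`.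
-/

set_option autoImplicit false

universe w w' v v' u u'

open CategoryTheory CategoryTheory.Limits

namespace Groth.Agent.Dual.H338.PlusCompare

open Groth.Agent.Dcoh.DerHo

variable {C : Type u} [Category.{v} C] [Abelian C] [HasDerivedCategory.{w} C]
  {D : Type u'} [Category.{v'} D] [Abelian D] [HasDerivedCategory.{w'} D]
  (F : C ⥤ D) [F.Additive]

/-- The functor `K^+(C) ⥤ D(D)` induced by `F`. -/
noncomputable abbrev base : HomotopyCategory.Plus C ⥤ DerivedCategory D :=
  (F.mapHomotopyCategoryPlus ⋙ DerivedCategory.Plus.Qh) ⋙ DerivedCategory.Plus.ι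

/-- The unit of `RF^+ ⋙ ι`. -/
noncomputable def unitPlus [EnoughInjectives C] : base F ⟶
    DerivedCategory.Plus.Qh ⋙ (F.rightDerivedFunctorPlus ⋙ DerivedCategory.Plus.ι) :=
  Functor.whiskerRight F.rightDerivedFunctorPlusUnit DerivedCategory.Plus.ι ≫
    (Functor.associator _ _ _).hom

/-- The unit of `ι ⋙ RF`. -/
noncomputable def unitBig (RF : DerivedCategory C ⥤ DerivedCategory D)
    (β : F.mapHomotopyCategory (ComplexShape.up ℤ) ⋙ DerivedCategory.Qh ⟶
      DerivedCategory.Qh ⋙ RF) : base F ⟶
    DerivedCategory.Plus.Qh ⋙ (DerivedCategory.Plus.ι ⋙ RF) :=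
  Functor.whiskerLeft (HomotopyCategory.Plus.ι C) β

lemma unitPlus_app [EnoughInjectives C] (K : HomotopyCategory.Plus C) :
    (unitPlus F).app K = DerivedCategory.Plus.ι.map (F.rightDerivedFunctorPlusUnit.app K) :=
  Category.comp_id _

lemma unitBig_app (RF : DerivedCategory C ⥤ DerivedCategory D)
    (β : F.mapHomotopyCategory (ComplexShape.up ℤ) ⋙ DerivedCategory.Qh ⟶
      DerivedCategory.Qh ⋙ RF) (K : HomotopyCategory.Plus C) :
    (unitBig F RF β).app K = β.app K.obj := rfl

instance isRightDerivedFunctor_unitPlus [EnoughInjectives C] :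
    (F.rightDerivedFunctorPlus ⋙ DerivedCategory.Plus.ι).IsRightDerivedFunctor
      (unitPlus F) (HomotopyCategory.Plus.quasiIso C) := by
  refine (HomotopyCategory.Plus.localizerMorphism_derives _).isRightDerivedFunctor_of_isIso _
    (fun X => ?_)
  rw [unitPlus_app]
  have h2 : IsIso (F.rightDerivedFunctorPlusUnit.app
      ((InjectiveObject.ι C).mapHomotopyCategoryPlus.obj X)) := by
    infer_instance
  infer_instance

lemma isRightDerivedFunctor_unitBig [EnoughInjectives C]
    (RF : DerivedCategory C ⥤ DerivedCategory D)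
    (β : F.mapHomotopyCategory (ComplexShape.up ℤ) ⋙ DerivedCategory.Qh ⟶
      DerivedCategory.Qh ⋙ RF)
    (hβ : ∀ I : CochainComplex C ℤ, I.IsKInjective →
      IsIso (β.app ((HomotopyCategory.quotient C (ComplexShape.up ℤ)).obj I))) :
    (DerivedCategory.Plus.ι ⋙ RF).IsRightDerivedFunctor
      (unitBig F RF β) (HomotopyCategory.Plus.quasiIso C) := by
  refine (HomotopyCategory.Plus.localizerMorphism_derives _).isRightDerivedFunctor_of_isIso _
    (fun X => ?_)
  rw [unitBig_app]
  obtain ⟨K, rfl⟩ := HomotopyCategory.Plus.quotient_obj_surjective X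
  exact hβ (((InjectiveObject.ι C).mapHomologicalComplex (.up ℤ)).obj K.obj) inferInstance

/-- The comparison isomorphism between the bounded below and unbounded right derived functors. -/
noncomputable def compareIso [EnoughInjectives C]
    (RF : DerivedCategory C ⥤ DerivedCategory D)
    (β : F.mapHomotopyCategory (ComplexShape.up ℤ) ⋙ DerivedCategory.Qh ⟶
      DerivedCategory.Qh ⋙ RF)
    (hβ : ∀ I : CochainComplex C ℤ, I.IsKInjective →
      IsIso (β.app ((HomotopyCategory.quotient C (ComplexShape.up ℤ)).obj I))) :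
    F.rightDerivedFunctorPlus ⋙ DerivedCategory.Plus.ι ≅ DerivedCategory.Plus.ι ⋙ RF :=
  haveI := isRightDerivedFunctor_unitBig F RF β hβ
  Functor.rightDerivedUnique _ _ (unitPlus F) (unitBig F RF β) (HomotopyCategory.Plus.quasiIso C)

/-- The comparison isomorphism is compatible with the units. -/
lemma compareIso_fac_app [EnoughInjectives C]
    (RF : DerivedCategory C ⥤ DerivedCategory D)
    (β : F.mapHomotopyCategory (ComplexShape.up ℤ) ⋙ DerivedCategory.Qh ⟶
      DerivedCategory.Qh ⋙ RF)
    (hβ : ∀ I : CochainComplex C ℤ, I.IsKInjective →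
      IsIso (β.app ((HomotopyCategory.quotient C (ComplexShape.up ℤ)).obj I)))
    (K : HomotopyCategory.Plus C) :
    (unitPlus F).app K ≫ (compareIso F RF β hβ).hom.app (DerivedCategory.Plus.Qh.obj K) =
      (unitBig F RF β).app K := by
  have := isRightDerivedFunctor_unitBig F RF β hβ
  have h := Functor.rightDerivedNatTrans_app (F.rightDerivedFunctorPlus ⋙ DerivedCategory.Plus.ι)
    (DerivedCategory.Plus.ι ⋙ RF) (unitPlus F) (unitBig F RF β)
    (HomotopyCategory.Plus.quasiIso C) (𝟙 _) K
  refine h.trans ?_
  rw [NatTrans.id_app, Category.id_comp]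

/-- With K-injective resolutions: for any unbounded right derived functor `(RF, β)`. -/
noncomputable def compareIsoOfHasKInj [EnoughInjectives C] (hC : HasKInj C)
    (RF : DerivedCategory C ⥤ DerivedCategory D)
    (β : F.mapHomotopyCategory (ComplexShape.up ℤ) ⋙ DerivedCategory.Qh ⟶
      DerivedCategory.Qh ⋙ RF)
    [RF.IsRightDerivedFunctor β (HomotopyCategory.quasiIso C (ComplexShape.up ℤ))] :
    F.rightDerivedFunctorPlus ⋙ DerivedCategory.Plus.ι ≅ DerivedCategory.Plus.ι ⋙ RF :=
  compareIso F RF β (fun I hI => isIso_unit_app' hC RF β I hI)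

end Groth.Agent.Dual.H338.PlusCompare
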