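import Groth.Agent.Dual.H338.PlusCompare
import Groth.Agent.Dcoh.DerSch
import Groth.Agent.PerfC.ClosedPush
import Groth.Prelude.Def_Dual3

/-!
# The unbounded derived adjunction `i_* ⊣ R Hom(O_Z, -)` for a closed immersion `i : Z ⟶ X`

* `RHomO i : D(O_X) ⥤ D(O_Z)`: total right derived functor of `Dual3.homO i` (unbounded).
* `pushAdj i : Dual3.pushD i ⊣ RHomO i`.
* `rpushIsoPushD i : DCoh.Rpush i ≅ Dual3.pushD i`.
* `rhomPlusIso i : Dual3.RHomOPlus i ⋙ Plus.ι ≅ Plus.ι ⋙ RHomO i`.
-/

set_option autoImplicit false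

universe u

open CategoryTheory CategoryTheory.Limits AlgebraicGeometry

attribute [local instance] HasDerivedCategory.standard

namespace Groth.Agent.Dual.H338.PushAdj

open Groth.Agent.Dcoh.DerHo Groth.Agent.Dcoh.DerAdj Groth.Agent.Dcoh.DerComp
  Groth.Agent.Dcoh.DerSch Groth.Agent.Dual.H338.PlusCompare

variable {Z X : Scheme.{u}} (i : Z ⟶ X)

section

variable [Dual3.HasHomO i]

instance hasRightDerivedFunctor_homO :
    (mapQh (Dual3.homO i)).HasRightDerivedFunctor (qis X.Modules) :=
  hasRightDerivedFunctor (hasKInj X) _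

/-- The unbounded `R Hom(O_Z, -) : D(O_X) ⥤ D(O_Z)`. -/
noncomputable def RHomO : DCoh.D X ⥤ DCoh.D Z :=
  (mapQh (Dual3.homO i)).totalRightDerived DerivedCategory.Qh (qis X.Modules)

/-- The unit of `RHomO i`. -/
noncomputable def RHomOUnit : mapQh (Dual3.homO i) ⟶ DerivedCategory.Qh ⋙ RHomO i :=
  (mapQh (Dual3.homO i)).totalRightDerivedUnit DerivedCategory.Qh (qis X.Modules)

instance : (RHomO i).IsRightDerivedFunctor (RHomOUnit i) (qis X.Modules) := by
  dsimp [RHomO, RHomOUnit]
  infer_instance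

/-- On bounded below complexes, `RHomOPlus` is the restriction of the unbounded functor. -/
noncomputable def rhomPlusIso [EnoughInjectives X.Modules] :
    Dual3.RHomOPlus i ⋙ (DerivedCategory.Plus.ι : DerivedCategory.Plus Z.Modules ⥤ DCoh.D Z) ≅
      (DerivedCategory.Plus.ι : DerivedCategory.Plus X.Modules ⥤ DCoh.D X) ⋙ RHomO i :=
  compareIsoOfHasKInj (Dual3.homO i) (hasKInj X) (RHomO i) (RHomOUnit i)

end

section

variable [PreservesFiniteColimits (Scheme.Modules.pushforward i)]

/-- For an exact `i_*` the total right derived functor `Ri_*` is the termwise functor. -/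
noncomputable def rpushIsoPushD [DCoh.HasRpush i] : DCoh.Rpush i ≅ Dual3.pushD i :=
  haveI : (Dual3.pushD i).IsRightDerivedFunctor
    (Scheme.Modules.pushforward i).mapDerivedCategoryFactorsh.inv (qis Z.Modules) :=
    isRightDerivedFunctor_mapDerivedCategory _
  Functor.rightDerivedUnique (DCoh.Rpush i) (Dual3.pushD i) (rpushUnit i)
    (Scheme.Modules.pushforward i).mapDerivedCategoryFactorsh.inv (qis Z.Modules)

variable [Dual3.HasHomO i]

/-- The derived adjunction `i_* ⊣ R Hom(O_Z, -)` on unbounded derived categories. -/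
noncomputable def pushAdj : Dual3.pushD i ⊣ RHomO i :=
  haveI : (Dual3.pushD i).IsLeftDerivedFunctor
    (Scheme.Modules.pushforward i).mapDerivedCategoryFactorsh.hom (qis Z.Modules) :=
    isLeftDerivedFunctor_mapDerivedCategory _
  derivedAdj (Dual3.homOAdj i) (hasKInj X) (leftDataExact _) (Dual3.pushD i)
    (Scheme.Modules.pushforward i).mapDerivedCategoryFactorsh.hom (RHomO i) (RHomOUnit i)

end

end Groth.Agent.Dual.H338.PushAdj
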